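import Mathlib

/-! Lifting local data through a section: the Frattini argument (`exists_lift`), eigenvectors (`exists_eig`),
conjugation into a subgroup of prime-to-`l` index (`exists_conj`), smaller alternating groups (`exists_alt`). -/

set_option autoImplicit false

namespace Cfsg.Agent.AltSec

variable {M Q G : Type*} [Group M] [Group Q] [Group G] {l : ℕ} [Fact l.Prime]

theorem exists_lift [Finite M] (φ : M →* Q) {V : Subgroup Q} (hV : IsPGroup l V) (h : V ≤ φ.range) :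
    ∃ P : Subgroup M, IsPGroup l P ∧ P.map φ = V ∧ ∀ n, φ n ∈ Subgroup.normalizer (V : Set Q) →
      ∃ n' ∈ Subgroup.normalizer (P : Set M), φ n' = φ n := by
  obtain ⟨S⟩ : Nonempty (Sylow l (V.comap φ)) := inferInstance
  let ψ : V.comap φ →* V := (φ.comp (V.comap φ).subtype).codRestrict V fun y => y.2
  have hψ : Function.Surjective ψ := fun v => (h v.2).elim fun y e => ⟨⟨y, by simp [e]⟩, Subtype.ext e⟩
  have h1 (v : V) : ∃ s ∈ (S : Subgroup (V.comap φ)), φ s = v := by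
    have : v ∈ (S.mapSurjective hψ : Subgroup V) := by
      rw [← (S.mapSurjective hψ).is_maximal' (hV.to_subgroup ⊤) le_top]; trivial
    exact this.imp fun s hs => ⟨hs.1, congrArg Subtype.val hs.2⟩
  refine ⟨(S : Subgroup _).map (V.comap φ).subtype, S.2.map _, le_antisymm ?_ fun v hv => ?_, fun n hn => ?_⟩
  · rintro _ ⟨_, ⟨s, -, rfl⟩, rfl⟩; exact s.2
  · obtain ⟨s, h2, h3⟩ := h1 ⟨v, hv⟩
    exact ⟨s, ⟨s, h2, rfl⟩, h3⟩
  let α := (V.comap φ).normalizerMonoidHom ⟨n, Subgroup.le_normalizer_comap φ hn⟩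
  obtain ⟨b, hb⟩ := MulAction.exists_smul_eq (V.comap φ) (α • S) S
  obtain ⟨s, h3, h4⟩ := h1 ⟨φ b⁻¹, (b⁻¹).2⟩
  refine ⟨s * (b * n), mul_mem (Subgroup.le_normalizer ⟨s, h3, rfl⟩) (Subgroup.mem_normalizer_fintype ?_), by
    simp [h4]⟩
  rintro _ ⟨y, hy, rfl⟩
  refine ⟨b * α y * b⁻¹, hb ▸ Subgroup.smul_mem_pointwise_smul _ (MulAut.conj b) _
    (Subgroup.smul_mem_pointwise_smul _ α _ hy), ?_⟩
  change b * (n * y * n⁻¹) * (b : M)⁻¹ = _
  simp [mul_assoc]

theorem exists_eig [Finite M] (φ : M →* Q) {P : Subgroup M} (hP : ∀ a ∈ P, ∀ b ∈ P, a * b = b * a) {x : Q}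
    (h : P.map φ = Subgroup.zpowers x) (hx : x ≠ 1) {n : M} (hn : n ∈ Subgroup.normalizer (P : Set M)) {q : ℕ}
    (e : φ n * x * (φ n)⁻¹ = x ^ q) : ∃ a ∈ P, a ≠ 1 ∧ n * a * n⁻¹ = a ^ q := by
  let : CommGroup P := { (inferInstance : Group P) with mul_comm a b := Subtype.ext (hP _ a.2 _ b.2) }
  let f : P →* P := (P.normalizerMonoidHom ⟨n, hn⟩).toMonoidHom / powMonoidHom q
  by_contra! H
  have h1 : Function.Injective f := (injective_iff_map_eq_one f).2 fun a ha => by_contra fun h0 =>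
    H a a.2 (fun e => h0 (Subtype.ext e)) (congrArg Subtype.val (div_eq_one.1 ha))
  obtain ⟨a, ha, rfl⟩ : x ∈ P.map φ := h ▸ Subgroup.mem_zpowers x
  obtain ⟨b, hb⟩ := Finite.surjective_of_injective h1 ⟨a, ha⟩
  obtain ⟨k, hk⟩ : φ b ∈ Subgroup.zpowers (φ a) := h ▸ ⟨b, b.2, rfl⟩
  have : φ (n * b * n⁻¹ / b ^ q) = φ a := congrArg (fun y : P => φ y) hb
  rw [map_div, map_mul, map_mul, map_inv, map_pow, ← hk, ← conj_zpow, e, ← zpow_natCast, ← zpow_natCast, ← zpow_mul,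
    ← zpow_mul, mul_comm, div_self'] at this
  exact hx this.symm

theorem exists_conj {T C P : Subgroup G} [Finite C] (h : ¬ l ∣ T.relIndex C) (hP : IsPGroup l P) (h' : P ≤ C) :
    ∃ c ∈ C, ∀ y ∈ P, c * y * c⁻¹ ∈ T := by
  obtain ⟨S⟩ : Nonempty (Sylow l (T.subgroupOf C)) := inferInstance
  let S' := (S.2.map (T.subgroupOf C).subtype).toSylow (by
    rw [Subgroup.index_map_of_injective _ (Subgroup.subtype_injective _), Subgroup.range_subtype]
    exact (Fact.out : l.Prime).not_dvd_mul S.not_dvd_index h)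
  obtain ⟨R, hR⟩ := (hP.comap_subtype (K := C)).exists_le_sylow
  obtain ⟨c, hc⟩ := MulAction.exists_smul_eq C R S'
  refine ⟨c, c.2, fun y hy => ?_⟩
  have : c * ⟨y, h' hy⟩ * c⁻¹ ∈ (S' : Subgroup C) := hc ▸ Subgroup.smul_mem_pointwise_smul _ (MulAut.conj c) _ (hR hy)
  obtain ⟨s, -, e⟩ := this
  exact (show ((s : C) : G) = c * y * (c : G)⁻¹ from congrArg Subtype.val e) ▸ s.2

theorem exists_alt {k r : ℕ} (h : k ≤ r) (φ : M →* alternatingGroup (Fin r)) (hφ : Function.Surjective φ) :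
    ∃ (N : Subgroup M) (ψ : N →* alternatingGroup (Fin k)), Function.Surjective ψ := by
  let f : alternatingGroup (Fin k) →* alternatingGroup (Fin r) := ((Equiv.Perm.viaEmbeddingHom (Fin.castLEEmb h)).comp
    (alternatingGroup _).subtype).codRestrict _ fun σ => (@Equiv.Perm.sign_extendDomain _ _ _ _ _ _ _ _ (_) _).trans σ.2
  have hf : Function.Injective f := fun σ τ e =>
    Subtype.ext (Equiv.Perm.viaEmbeddingHom_injective _ (congrArg Subtype.val e))
  refine ⟨f.range.comap φ, (MonoidHom.ofInjective hf).symm.toMonoidHom.comp (φ.subgroupComap _),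
    (MonoidHom.ofInjective hf).symm.surjective.comp fun y => ?_⟩
  obtain ⟨z, hz⟩ := hφ y
  exact ⟨⟨z, by simp [hz]⟩, Subtype.ext hz⟩

end Cfsg.Agent.AltSec
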